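import Cfsg.Agent.H96.FiDefs
import Cfsg.Agent.H56.Fi22O6

set_option autoImplicit false

namespace Cfsg.Agent.H96

/-- the transpositions of Fi22 commuting with two non-commuting ones -/
theorem o6_22 {d c : Spor.Fi22} (hd : d ∈ D22) (hc : c ∈ D22) (h : ¬ Commute d c) :
    Subgroup.center ↥(Subgroup.closure (nb D22 d ∩ nb D22 c)) = ⊥ ∧
    ∃ c₃ : ZMod 3, c₃ ≠ 0 ∧
      IsProjReflectionGroupModThree ↥(Subgroup.closure (nb D22 d ∩ nb D22 c)) 6 1 c₃ := by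
  have := H58.Fi22P.finite
  obtain ⟨T, h1, rfl, rfl⟩ := H56.Fi22O6.exists_model H52.Fi.is22_T22 hd hc h
  obtain ⟨-, -, h2, h3⟩ := H56.Fi22O6.main h1 H58.Fi22P.card_eq
  rw [← H56.Fi22O6.st_R h1]
  exact ⟨h2, 1, by decide, h3⟩

end Cfsg.Agent.H96
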