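import Cfsg.Agent.H96.FiDefs
import Cfsg.Agent.H56.Fi23O7

set_option autoImplicit false

namespace Cfsg.Agent.H96

/-- the transpositions of Fi23 commuting with two non-commuting ones -/
theorem o7_23 {d c : Spor.Fi23} (hd : d ∈ D23) (hc : c ∈ D23) (h : ¬ Commute d c) :
    Subgroup.center ↥(Subgroup.closure (nb D23 d ∩ nb D23 c)) = ⊥ ∧
    Nonempty (↥(Subgroup.closure (nb D23 d ∩ nb D23 c)) ≃*
      POmega (ZMod 3) (quadFormOdd 3 (ZMod 3))) ∧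
    ∃ c₃ : ZMod 3, c₃ ≠ 0 ∧
      IsProjReflectionGroupModThree ↥(Subgroup.closure (nb D23 d ∩ nb D23 c)) 7 (-c₃) c₃ := by
  have := H58.Fi23P.finite
  obtain ⟨T, h1, rfl, rfl⟩ := H56.Fi23O7.exists_model H56.Fi23O7.is23_T23 hd hc h
  obtain ⟨-, h2, h3, h4⟩ := H56.Fi23O7.main h1 H58.Fi23P.card_eq
  rw [← H56.Fi23O7.st_R h1]
  exact ⟨h2, h3, 1, by decide, h4⟩

end Cfsg.Agent.H96
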