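import Cfsg.Agent.H96.Facts24
import Cfsg.Agent.H51.FiE
import Cfsg.Agent.S2054

/-! Canonical lifts of the centralizers of transpositions to extensions of Fi24. -/

set_option autoImplicit false

namespace Cfsg.Agent.H96.Mu

open Cfsg.Agent.H58 Cfsg.Agent.H95 Cfsg.Agent.H51.Fi Cfsg.Spor Subgroup
open scoped commutatorElement

theorem comm_le {H : Type*} [Group H] {A B : Subgroup H} (hB : B ≤ A)
    (h : ∀ x ∈ A, ∃ f ∈ B, ∀ y ∈ A, Commute (f⁻¹ * x) y) : ⁅A, A⁆ ≤ ⁅B, B⁆ := by
  refine commutator_le.2 fun x hx y hy => ?_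
  obtain ⟨f, hf, h1⟩ := h x hx
  obtain ⟨g, hg, h2⟩ := h y hy
  have h3 : ∀ {u v k : H}, Commute k v → ⁅u * k, v⁆ = ⁅u, v⁆ := fun {u v k} h => by
    rw [commutatorElement_def, commutatorElement_def, mul_assoc u, h.eq, mul_inv_rev]; group
  have h4 : ⁅x, y⁆ = ⁅f, g⁆ := by
    rw [← mul_inv_cancel_left f x, h3 (h1 y hy), ← commutatorElement_inv, ← mul_inv_cancel_left g y,
      h3 (h2 f (hB hf)), commutatorElement_inv]
  exact h4 ▸ commutator_mem_commutator hf hg

theorem comm_le_self {H : Type*} [Group H] (A : Subgroup H) : ⁅A, A⁆ ≤ A :=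
  (commutator_le_sup A A).trans (sup_idem A).le

theorem perf_of_simple {H : Type*} [Group H] [IsSimpleGroup H] (h : ¬ (Nat.card H).Prime) :
    _root_.commutator H = ⊤ :=
  (IsSimpleGroup.eq_bot_or_eq_top_of_normal _ inferInstance).resolve_left fun h1 =>
    have := (commutator_eq_bot_iff _).1 h1
    h (Group.is_simple_iff_prime_card.1 inferInstance)

theorem perf22 : _root_.commutator Fi22 = ⊤ :=
  have := Fi22P.simple
  perf_of_simple (Fi22P.card_eq ▸ Nat.not_prime_of_dvd_of_lt (m := 2) (by norm_num) le_rfl (by norm_num))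

theorem perf23 : _root_.commutator Fi23 = ⊤ :=
  have := Fi23P.simple
  perf_of_simple (Fi23P.card_eq ▸ Nat.not_prime_of_dvd_of_lt (m := 2) (by norm_num) le_rfl (by norm_num))

theorem lev24 : Lev D24 D23 := by
  obtain ⟨e, he, -⟩ := iso_nb24
  obtain ⟨h1, h2⟩ := step_of tt24 (fun g _ h => conj24 g h) l24_mem closure_nb24 cent_cent24
  have := h1.equiv_comp e
  rw [h2, he] at this
  exact lev_of_one class24 l24_mem this

abbrev L : Subgroup Fi24 := _root_.commutator Fi24

theorem mul_L {a b : Fi24} : a * b ∈ L ↔ (a ∈ L ↔ b ∈ L) :=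
  mul_mem_iff_of_index_two Fi24P.index_commutator

theorem pair_L {a b : Fi24} (ha : a ∈ D24) (hb : b ∈ D24) : a * b ∈ L :=
  mul_L.2 (iff_of_false (not_mem_commutator24 ha) (not_mem_commutator24 hb))

/-- the centralizer in the simple group -/
def CL (B : Set Fi24) : Subgroup Fi24 := centralizer B ⊓ L

theorem perf_CL {G' : Type*} [Group G'] {B : Set Fi24} {D' : Set G'} {p : Fi24 → G'}
    (h : SecB D24 B D' p) (h1 : _root_.commutator G' = ⊤) {d : Fi24} (hd : d ∈ D24) (hB : d ∈ B)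
    (h2 : ∀ x ∈ closure B, x ∈ L → x ∈ ⁅centralizer B, centralizer B⁆) : CL B ≤ ⁅CL B, CL B⁆ := by
  have hc : d ∈ centralizer B := h.le (subset_closure hB)
  refine le_trans (fun x hx => ?_) (comm_le inf_le_left fun x hx => ?_)
  · have h3 : h.hom ⟨x, hx.1⟩ ∈ (_root_.commutator _).map h.hom := by
      rw [map_commutator_eq, MonoidHom.range_eq_top.2 h.hom_surj, ← _root_.commutator_def, h1]; trivial
    obtain ⟨w, hw, e⟩ := h3
    have h4 : (w : Fi24) ∈ ⁅centralizer B, centralizer B⁆ :=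
      map_subtype_commutator (centralizer B) ▸ ⟨w, hw, rfl⟩
    have h5 := h2 _ ((h.eq_iff w.2 hx.1).1 e)
      (mul_mem (inv_mem (commutator_mono le_top le_top h4)) hx.2)
    simpa using mul_mem h4 h5
  · by_cases h3 : x ∈ L
    · exact ⟨x, ⟨hx, h3⟩, by simp⟩
    · refine ⟨x * d, ⟨mul_mem hx hc, mul_L.2 (iff_of_false h3 (not_mem_commutator24 hd))⟩, fun y hy => ?_⟩
      simpa using (mem_cents.1 hy d hB).symm

theorem perf_one {d : Fi24} (hd : d ∈ D24) : CL {d} ≤ ⁅CL {d}, CL {d}⁆ := by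
  obtain ⟨p, hp⟩ := lev24.step d hd
  refine perf_CL hp perf23 hd rfl fun x hx h1 => ?_
  rcases (mem_closure_inv (TT.mul_self tt24 hd)).1 hx with rfl | rfl
  exacts [one_mem _, absurd h1 (not_mem_commutator24 hd)]

theorem perf_two {d e : Fi24} (hd : d ∈ D24) (he : e ∈ nb D24 d) :
    CL {d, e} ≤ ⁅CL {d, e}, CL {d, e}⁆ := by
  obtain ⟨p, hp⟩ := lev24.sec2 lev23 hd he
  obtain ⟨y, hy, -⟩ := hp.lift a22_mem
  have hy' := mem_nbs_two.1 hy
  have h1 : Clq D24 [y, d, e] := clq_cons.2 ⟨hy.1, by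
    simpa using ⟨mem_nb_symm hd hy'.1, mem_nb_symm he.1 hy'.2⟩,
    clq_cons.2 ⟨hd, by simpa using he, clq_cons.2 ⟨he.1, by simp, clq_nil⟩⟩⟩
  have hn : NoRel D24 8 := lev24.noRel lev23.noRel23
  have h2 := ((lev24.rel lev23.rel23 hn (by decide)).mem_comm tt24 lev24.cjm (l := [d, e])
    (lev24.tr (lev23.tr23 (m := 2) (by decide))) (lev24.tr (lev23.tr23 (m := 3) (by decide))) rfl h1 rfl).1
  have h3 : centralizer {x | x ∈ [y, d, e]} ≤ centralizer {d, e} :=
    centralizer_le fun x hx => by rcases hx with rfl | rfl <;> simp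
  have h4 : d * e ∈ ⁅centralizer {d, e}, centralizer {d, e}⁆ := commutator_mono h3 h3 (by simpa using h2)
  refine perf_CL hp perf22 hd (Or.inl rfl) fun x hx h5 => ?_
  have h6 : x = 1 ∨ x = d ∨ x = e ∨ x = d * e := by
    have a1 := TT.mul_self tt24 hd
    have a2 := TT.mul_self tt24 he.1
    have a3 : e * d = d * e := he.2.2.eq.symm
    have a4 : ∀ z, e * (d * z) = d * (e * z) := fun z => by rw [← mul_assoc, a3, mul_assoc]
    clear h5
    induction hx using closure_induction_left with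
    | one => simp
    | mul_left u hu z _ ih =>
      rcases hu with rfl | rfl <;> rcases ih with rfl | rfl | rfl | rfl <;>
        simp [a1, a2, a3, a4, mul_self_cancel_left a1]
    | inv_mul_cancel u hu z _ ih =>
      rcases hu with rfl | rfl <;> rcases ih with rfl | rfl | rfl | rfl <;>
        simp [a1, a2, a3, a4, mul_self_cancel_left a1, inv_eq_of_mul_self a1, inv_eq_of_mul_self a2]
  rcases h6 with rfl | rfl | rfl | rfl
  exacts [one_mem _, absurd h5 (not_mem_commutator24 hd), absurd h5 (not_mem_commutator24 he.1), h4]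

variable {E : Type} [Group E] (π : E →* Fi24)

/-- the canonical lift of the centralizer of `d` in the simple group -/
def F (d : Fi24) : Subgroup E := ⁅(CL {d}).comap π, (CL {d}).comap π⁆

/-- an extension of Fi24 that is central over the simple group, in which `l` lifts to an involution -/
structure Ext (s : E) : Prop where
  surj : Function.Surjective π
  cen : ∀ k, π k = 1 → ∀ x, π x ∈ L → Commute k x
  sq : s * s = 1
  ps : π s = l24

variable {π}

theorem F_mem {d : Fi24} {f : E} (h : f ∈ F π d) : Commute (π f) d ∧ π f ∈ L :=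
  let h1 := comm_le_self _ h
  ⟨mem_cents.1 h1.1 d rfl, h1.2⟩

theorem F_cj {d : Fi24} {f : E} (g : E) (h : f ∈ F π d) : cj g f ∈ F π (cj (π g) d) := by
  have h1 : ∀ x ∈ (CL {d}).comap π, MulAut.conj g x ∈ (CL {cj (π g) d}).comap π := fun x hx => by
    have e : π (MulAut.conj g x) = cj (π g) (π x) := by simp [cj_def]
    rw [mem_comap, e]
    exact ⟨mem_cents.2 fun b hb => hb ▸ (commute_cj _).2 (mem_cents.1 hx.1 d rfl),
      Normal.conj_mem inferInstance _ hx.2 _⟩
  refine (commutator_le (H₃ := (F π (cj (π g) d)).comap (MulAut.conj g).toMonoidHom)).2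
    (fun x hx y hy => ?_) h
  rw [mem_comap, map_commutatorElement]
  exact commutator_mem_commutator (h1 x hx) (h1 y hy)

namespace Ext

variable {s : E} (h : Ext π s)
include h

theorem lift {C : Subgroup Fi24} (hC : C ≤ ⁅C, C⁆) {x : Fi24} (hx : x ∈ C) :
    ∃ f ∈ ⁅C.comap π, C.comap π⁆, π f = x := by
  have := hC hx
  rwa [← map_comap_eq_self_of_surjective h.surj C, ← map_commutator] at this

theorem lift_F {d x : Fi24} (hd : d ∈ D24) (h1 : Commute x d) (h2 : x ∈ L) : ∃ f ∈ F π d, π f = x :=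
  h.lift (perf_one hd) ⟨mem_cents.2 fun _ hb => hb ▸ h1, h2⟩

variable [Finite E]

theorem eq_one {d : Fi24} (hd : d ∈ D24) {f : E} (hf : f ∈ F π d) (h1 : π f = 1) : f = 1 := by
  obtain ⟨p, hp⟩ := lev24.step d hd
  let σ : F π d →* Fi23 := hp.hom.comp ((π.comp (F π d).subtype).codRestrict _ fun x =>
    (comm_le_self _ x.2).1)
  have hk : ∀ x : F π d, σ x = 1 → π x = 1 := fun x hx =>
    ((mem_closure_inv (TT.mul_self tt24 hd)).1 ((hp.ker _ (comm_le_self _ x.2).1).1 hx)).resolve_right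
      fun e => not_mem_commutator24 hd (e ▸ (F_mem x.2).2)
  have hp1 : F π d ≤ ⁅F π d, F π d⁆ := comm_le (comm_le_self _) fun x hx => by
    obtain ⟨g, hg, e⟩ := h.lift (perf_one hd) hx
    exact ⟨g, hg, fun y hy => h.cen _ (by simp [e]) y hy.2⟩
  suffices hs : IsStemExtension σ by
    obtain ⟨q, hq⟩ := S2054.result.2 (F π d) σ hs
    obtain ⟨a, ha⟩ := hq ⟨⟨f, hf⟩, show p (π f) = 1 by rw [h1, hp.one]⟩
    rw [Subsingleton.elim a 1, map_one] at ha
    exact (congrArg (fun x => x.1.1) ha).symm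
  refine ⟨fun y => ?_, fun x hx => ?_, fun x _ => ?_⟩
  · obtain ⟨x, hx, rfl⟩ := hp.surj y
    by_cases h2 : x ∈ L
    · obtain ⟨g, hg, e⟩ := h.lift (perf_one hd) ⟨hx, h2⟩
      exact ⟨⟨g, hg⟩, congrArg p e⟩
    · have h3 : d ∈ centralizer {d} := hp.le (subset_closure rfl)
      obtain ⟨g, hg, e⟩ := h.lift (perf_one hd)
        ⟨mul_mem hx h3, mul_L.2 (iff_of_false h2 (not_mem_commutator24 hd))⟩
      refine ⟨⟨g, hg⟩, (congrArg p e).trans ?_⟩
      rw [hp.mul _ hx _ h3, (hp.ker _ h3).2 (subset_closure rfl), mul_one]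
  · exact mem_center_iff.2 fun y => Subtype.ext (h.cen _ (hk x hx) y (F_mem y.2).2).eq.symm
  · have h2 := hp1 x.2
    rw [← map_subtype_commutator] at h2
    obtain ⟨y, hy, e⟩ := h2
    exact (Subtype.ext e : y = x) ▸ hy

theorem inj {d : Fi24} (hd : d ∈ D24) {f g : E} (hf : f ∈ F π d) (hg : g ∈ F π d) (e : π f = π g) :
    f = g := inv_mul_eq_one.1 (h.eq_one hd (mul_mem (inv_mem hf) hg) (by simp [e]))

theorem comm {x f : E} (hx : π x ∈ D24) (hf : f ∈ F π (π x)) : Commute x f := by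
  have h1 := F_cj x hf
  rw [cj_self] at h1
  refine cj_eq_self_iff.1 (h.inj hx h1 hf ?_)
  simpa [cj_def] using cj_of_commute (F_mem hf).1.symm

theorem move {d e : Fi24} (hd : d ∈ D24) (he : e ∈ nb D24 d) {f : E} (hf : f ∈ F π d)
    (h1 : Commute (π f) e) : f ∈ F π e := by
  obtain ⟨g, hg, e1⟩ := h.lift (perf_two hd he) ⟨mem_cent_two.2 ⟨(F_mem hf).1, h1⟩, (F_mem hf).2⟩
  have h2 : ∀ b ∈ ({d, e} : Set Fi24), g ∈ F π b := fun b hb =>
    have h3 : (CL {d, e}).comap π ≤ (CL {b}).comap π :=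
      comap_mono (inf_le_inf_right _ (centralizer_le (Set.singleton_subset_iff.2 hb)))
    commutator_mono h3 h3 hg
  exact h.inj hd (h2 d (by simp)) hf e1 ▸ h2 e (by simp)

theorem sq_of {x y : E} (hx : π x ∈ D24) (h1 : x * x = 1) (hy : π y ∈ D24) (h2 : x * y ∈ F π (π x)) :
    y * y = 1 := by
  have h3 := h.comm hx h2
  have h4 : Commute x y := by simpa using (Commute.refl x).inv_right.mul_right h3
  have h5 : x * y * (x * y) = y * y := by rw [mul_assoc, ← mul_assoc y, ← h4.eq, ← mul_assoc, ← mul_assoc, h1, one_mul]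
  refine h.eq_one hx (h5 ▸ mul_mem h2 h2) ?_
  rw [map_mul, TT.mul_self tt24 hy]

end Ext

end Cfsg.Agent.H96.Mu
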