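import Cfsg.Agent.H96.MuK
import Cfsg.Agent.H96.Facts24
import Cfsg.Agent.H63.Final

/-! The triple cover of Fi24'. -/

set_option autoImplicit false
set_option exponentiation.threshold 400000
set_option maxRecDepth 10000

namespace Cfsg.Agent.H96.Mu

open Cfsg.Agent.H58 Cfsg.Agent.H95 Cfsg.Spor Subgroup
open scoped commutatorElement

/-- the element of `ZMod 3` coded by two bits -/
def vb (b1 b2 : Bool) : ZMod 3 := cond b1 1 (cond b2 2 0)

theorem vb_step : ∀ u1 u2 c1 c2 : Bool, (u1 && u2) = false → (c1 && c2) = false →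
    (((u1 || c1) ^^ ((u1 || c2) ^^ (u2 || c1))) && ((u2 || c2) ^^ ((u1 || c2) ^^ (u2 || c1)))) = false ∧
    vb ((u1 || c1) ^^ ((u1 || c2) ^^ (u2 || c1))) ((u2 || c2) ^^ ((u1 || c2) ^^ (u2 || c1))) =
      -(vb c1 c2 + vb u1 u2) := by decide

theorem dj' (y p : ℕ) : ((cA.getD y 0).testBit p && (cB.getD y 0).testBit p) = false := by
  rcases Nat.lt_or_ge y 13 with h | h
  · have h1 : cA.getD y 0 &&& cB.getD y 0 = 0 :=
      Nat.eq_of_beq_eq_true (List.all_eq_true.1 dj y (List.mem_range.2 h))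
    rw [← Nat.testBit_and, h1, Nat.zero_testBit]
  · rw [List.getD_eq_default cA 0 h, Nat.zero_testBit, Bool.false_and]

/-- a letter acts on the triple cover of the set of points -/
noncomputable def ψ (y : ℕ) : Equiv.Perm (ℕ × ZMod 3) :=
  Equiv.prodShear (T24.φ (T24.el y)) fun p =>
    Equiv.subLeft (vb ((cA.getD y 0).testBit p) ((cB.getD y 0).testBit p))

theorem ψ_apply (y p : ℕ) (v : ZMod 3) : ψ y (p, v) =
    (T24.φ (T24.el y) p, vb ((cA.getD y 0).testBit p) ((cB.getD y 0).testBit p) - v) := rfl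

theorem go_sound (r : ℕ) (w : List ℕ) : ∀ (a1 a2 : ℕ) (g : Equiv.Perm (ℕ × ZMod 3)) (γ : Fi24)
    (e : ZMod 3), (∀ p, (a1.testBit p && a2.testBit p) = false) →
    (∀ p v, g (p, v) = (T24.φ γ p, e * (v + vb (a1.testBit p) (a2.testBit p)))) →
    go T24.nets r w a1 a2 = 0 → ∀ p v, (g * (w.map ψ).prod) (p, v) =
      (T24.φ (γ * wv T24.el w) p, e * (-1) ^ w.length * (v + vb (r.testBit p) false)) := by
  induction w with
  | nil =>
    intro a1 a2 g γ e _ h2 h3 p v
    obtain ⟨h4, rfl⟩ : a1 ^^^ r = 0 ∧ a2 = 0 := Nat.add_eq_zero_iff.1 h3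
    obtain rfl := Nat.eq_of_xor_eq_zero h4
    simpa [wv] using h2 p v
  | cons y w ih =>
    intro a1 a2 g γ e h1 h2 h3 p v
    have h4 : go T24.nets r (y :: w) a1 a2 = frcN (fun u1 => frcN (stp (go T24.nets r w) (cA.getD y 0)
      (cB.getD y 0) u1) (appW T24.nets [y] a2)) (appW T24.nets [y] a1) := rfl
    rw [h4, frcN_eq, frcN_eq, stp, frcN_eq, frcN_eq, frcN_eq] at h3
    have h5 : ∀ A q, (appW T24.nets [y] A).testBit q = A.testBit (T24.φ (T24.el y) q) := fun A q => by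
      rw [T24.testBit_appW']; simp [wv]
    have h6 := ih _ _ (g * ψ y) (γ * T24.el y) (-e) (fun q => ?_) (fun q u => ?_) h3 p v
    · rw [List.map_cons, List.prod_cons, ← mul_assoc, h6, T24.wv_cons, mul_assoc γ, List.length_cons]
      congr 1; ring
    · show (Nat.testBit (_ ^^^ (_ ^^^ _)) q && Nat.testBit (_ ^^^ (_ ^^^ _)) q) = false
      simp only [Nat.testBit_xor, Nat.lor_eq, Nat.testBit_or, h5]
      exact (vb_step _ _ _ _ (h1 _) (dj' y q)).1
    · show g (ψ y (q, u)) = (_, _ * (_ + vb (Nat.testBit (_ ^^^ (_ ^^^ _)) q)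
        (Nat.testBit (_ ^^^ (_ ^^^ _)) q)))
      simp only [Nat.testBit_xor, Nat.lor_eq, Nat.testBit_or, h5]
      rw [(vb_step _ _ _ _ (h1 _) (dj' y q)).2, ψ_apply, h2, map_mul, Equiv.Perm.mul_apply]
      congr 1; ring

/-- the translation along the fibres given by a mask -/
def τ (r : ℕ) : Equiv.Perm (ℕ × ZMod 3) :=
  Equiv.prodShear (Equiv.refl ℕ) fun p => Equiv.addRight (vb (r.testBit p) false)

theorem τ_apply (r p : ℕ) (v : ZMod 3) : τ r (p, v) = (p, v + vb (r.testBit p) false) := rfl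

theorem τ_zero : τ 0 = 1 := Equiv.ext fun ⟨p, v⟩ => by simp [τ_apply, vb]

theorem prod_eq {r : ℕ} {w : List ℕ} (h : Nat.beq (go F24M.nets r w 0 0) 0 = true)
    (h1 : wv T24.el w = 1) (h2 : Even w.length) : (w.map ψ).prod = τ r := Equiv.ext fun ⟨p, v⟩ => by
  have := go_sound r w 0 0 1 1 1 (by simp) (by simp [vb]) (Nat.eq_of_beq_eq_true h) p v
  rw [h1, h2.neg_one_pow] at this
  simpa [τ_apply] using this

abbrev W : Type := Equiv.Perm (ℕ × ZMod 3) × Fi24

/-- the generators of the triple cover -/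
noncomputable def fn (y : ℕ) : W := (ψ y, T24.el y)

noncomputable def t : W := (τ K24.full, 1)

theorem prod_fn (w : List ℕ) : (w.map fn).prod = ((w.map ψ).prod, wv T24.el w) := by
  induction w with
  | nil => rfl
  | cons y w ih => rw [List.map_cons, List.prod_cons, ih, T24.wv_cons]; rfl

theorem π_of (x : Fi24.Gen) : Fi24P.π (FreeGroup.of x) = T24.el (Fi24P.code x) := (Fi24P.hc x).1.symm

theorem π_rel {r : FreeGroup Fi24.Gen} (h : r ∈ coxRelators Fi24.edges ∪ {r | r ∈ Fi24.extra}) :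
    Fi24P.π r = 1 := PresentedGroup.one_of_mem h

theorem nodes : ∀ x : Fi24.Gen, x ∈ coxNodes Fi24.edges := by intro x; cases x <;> decide

theorem cox_el (x y : Fi24.Gen) :
    (T24.el (Fi24P.code x) * T24.el (Fi24P.code y)) ^ coxLabel Fi24.edges x y = 1 := by
  have := π_rel (Or.inl ⟨x, nodes x, y, nodes y, rfl⟩)
  rwa [map_pow, map_mul, π_of, π_of] at this

theorem prod_rep {M : Type*} [Monoid M] (f : ℕ → M) (n : ℕ) (w : List ℕ) :
    ((List.replicate n w).flatten.map f).prod = (w.map f).prod ^ n := by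
  rw [List.map_flatten, List.prod_flatten]; simp

theorem cox_fn (x y : Fi24.Gen) :
    (fn (Fi24P.code x) * fn (Fi24P.code y)) ^ coxLabel Fi24.edges x y = 1 := by
  have h : row x = true := by
    cases x
    exacts [rl, rk, ra, rb, rc, rd, re, rf, rg, rj, rh, ri]
  have h1 : wv T24.el (List.replicate (coxLabel Fi24.edges x y) [Fi24P.code x, Fi24P.code y]).flatten = 1 := by
    rw [wv, prod_rep]; simpa using cox_el x y
  have h2 := prod_fn (List.replicate (coxLabel Fi24.edges x y) [Fi24P.code x, Fi24P.code y]).flatten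
  rw [prod_eq (List.all_eq_true.1 h y (Fi24P.hall y)) h1 (by simp), h1, τ_zero, prod_rep,
    Prod.mk_one_one] at h2
  simpa using h2

theorem z_el : wv T24.el [4, 3, 2, 1, 11, 12, 4, 5, 6, 7, 10, 4, 8, 9] ^ 17 = 1 := by
  have := π_rel (r := (Fi24.d * Fi24.c * Fi24.b * Fi24.a * Fi24.k * Fi24.l * Fi24.d * Fi24.e * Fi24.f *
    Fi24.g * Fi24.j * Fi24.d * Fi24.h * Fi24.i) ^ 17) (Or.inr (by simp [Fi24.extra]))
  simpa only [map_pow, map_mul, π_of, Fi24P.code, wv, List.map_cons, List.map_nil, List.prod_cons,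
    List.prod_nil, mul_one, mul_assoc] using this

theorem x1_fn : ([1, 2, 3, 4, 5, 6, 8].map fn).prod ^ 9 * fn 12 = 1 := by
  have h1 : wv T24.el ((List.replicate 9 [1, 2, 3, 4, 5, 6, 8]).flatten ++ [12]) = 1 := by
    rw [T24.wv_append, l24_eq, T24.wv_cons, T24_el_l]
    simpa [wv] using TT.mul_self tt24 l24_mem
  have h2 := prod_fn ((List.replicate 9 [1, 2, 3, 4, 5, 6, 8]).flatten ++ [12])
  rw [prod_eq x1 h1 (by decide), h1, τ_zero, List.map_append, List.prod_append, prod_rep,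
    Prod.mk_one_one] at h2
  simpa using h2

theorem x2_fn : ([4, 3, 2, 1, 11, 12, 4, 5, 6, 7, 10, 4, 8, 9].map fn).prod ^ 17 = t := by
  have h1 : wv T24.el (List.replicate 17 [4, 3, 2, 1, 11, 12, 4, 5, 6, 7, 10, 4, 8, 9]).flatten = 1 := by
    rw [wv, prod_rep]; exact z_el
  have h2 := prod_fn (List.replicate 17 [4, 3, 2, 1, 11, 12, 4, 5, 6, 7, 10, 4, 8, 9]).flatten
  rwa [prod_eq x2 h1 (by decide), h1, prod_rep] at h2

theorem testBit_full (p : ℕ) : K24.full.testBit p = decide (p < T24.N) :=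
  Nat.testBit_two_pow_sub_one 306936 p

theorem cj_fn (y : ℕ) : cj (fn y) t = t⁻¹ := by
  rw [cj_def, mul_inv_eq_iff_eq_mul, eq_inv_mul_iff_mul_eq]
  refine Prod.ext (Equiv.ext fun ⟨p, v⟩ => ?_) (by simp [t])
  have h : T24.φ (T24.el y) p < T24.N ↔ p < T24.N :=
    ⟨fun h => by simpa using T24.φ_lt (T24.el y)⁻¹ h, T24.φ_lt _⟩
  show τ _ (ψ y (τ _ (p, v))) = ψ y (p, v)
  simp only [τ_apply, ψ_apply, testBit_full, h]
  congr 1; ring

/-- even elements centralize `t`, odd elements invert it -/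
def Zs : Subgroup W where
  carrier := {u | (u.2 ∈ commutator Fi24 → cj u t = t) ∧ (u.2 ∉ commutator Fi24 → cj u t = t⁻¹)}
  one_mem' := ⟨fun _ => by simp [cj_def], fun h => absurd (one_mem _) h⟩
  mul_mem' {a b} ha hb := by
    have h := mul_mem_iff_of_index_two Fi24P.index_commutator (a := a.2) (b := b.2)
    have h1 : cj a t⁻¹ = (cj a t)⁻¹ := by simp [cj_def, mul_assoc]
    show ((a.2 * b.2 ∈ _) → _) ∧ ((a.2 * b.2 ∉ _) → _)
    rw [h, cj_mul]
    by_cases h2 : a.2 ∈ commutator Fi24 <;> by_cases h3 : b.2 ∈ commutator Fi24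
    · rw [hb.1 h3, ha.1 h2]; tauto
    · rw [hb.2 h3, h1, ha.1 h2]; tauto
    · rw [hb.1 h3, ha.2 h2]; tauto
    · rw [hb.2 h3, h1, ha.2 h2, inv_inv]; tauto
  inv_mem' {a} ha := by
    refine ⟨fun h => ?_, fun h => ?_⟩
    · have := ha.1 (inv_mem_iff.1 h)
      conv_lhs => rw [← this]
      simp [cj_def, mul_assoc]
    · have := congrArg (·⁻¹) (ha.2 fun h1 => h (inv_mem h1))
      rw [inv_inv] at this
      conv_lhs => rw [← this]
      simp [cj_def, mul_assoc]

theorem code_bd : ∀ x, 1 ≤ Fi24P.code x ∧ Fi24P.code x ≤ 12 := by intro x; cases x <;> decide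

theorem el_nmem (x : Fi24.Gen) : T24.el (Fi24P.code x) ∉ commutator Fi24 :=
  not_mem_commutator24 (T24.el_mem (code_bd x).1 (code_bd x).2)

noncomputable def Ψ : FreeGroup Fi24.Gen →* W := FreeGroup.lift fun x => fn (Fi24P.code x)

theorem Ψ_snd (w : FreeGroup Fi24.Gen) : (Ψ w).2 = Fi24P.π w :=
  DFunLike.congr_fun (show (MonoidHom.snd _ _).comp Ψ = Fi24P.π from
    FreeGroup.ext_hom _ _ fun x => by simp [Ψ, fn, π_of]) w

theorem Ψ_mem (w : FreeGroup Fi24.Gen) : Ψ w ∈ Zs :=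
  FreeGroup.range_lift_le (s := Zs) (by
    rintro _ ⟨x, rfl⟩
    exact ⟨fun h => absurd h (el_nmem x), fun _ => cj_fn _⟩) ⟨w, rfl⟩

theorem Ψ_ker {w : FreeGroup Fi24.Gen} (h : Fi24P.π w = 1) : Ψ w ∈ zpowers t := by
  have hN : ((zpowers t).comap Ψ).Normal := ⟨fun n ⟨i, hi⟩ g => by
    have h1 : Ψ (g * n * g⁻¹) = cj (Ψ g) t ^ i := by
      rw [map_mul, map_mul, map_inv, ← hi, cj_def, conj_zpow]
    rw [mem_comap, h1]
    refine zpow_mem ?_ i
    by_cases h2 : (Ψ g).2 ∈ commutator Fi24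
    · rw [(Ψ_mem g).1 h2]; exact mem_zpowers _
    · rw [(Ψ_mem g).2 h2]; exact inv_mem (mem_zpowers _)⟩
  refine normalClosure_le_normal (N := (zpowers t).comap Ψ) ?_ (PresentedGroup.mk_eq_one_iff.1 h)
  rintro r (⟨x, -, y, -, rfl⟩ | hr)
  · show Ψ _ ∈ zpowers t
    simp only [Ψ, map_pow, map_mul, FreeGroup.lift_apply_of, cox_fn, one_mem]
  · simp only [Fi24.extra, Set.mem_ofPred_eq, List.mem_cons, List.not_mem_nil, or_false] at hr
    show Ψ r ∈ zpowers t
    have h1 := x1_fn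
    have h2 := x2_fn
    have h3 : fn 12 * fn 12 = 1 := by simpa [coxLabel, Fi24P.code] using cox_fn .l .l
    simp only [List.map_cons, List.map_nil, List.prod_cons, List.prod_nil, mul_one, ← mul_assoc] at h1 h2
    rcases hr with rfl | rfl <;>
      simp only [Ψ, map_pow, map_mul, map_inv, FreeGroup.lift_apply_of, Fi24P.code]
    · rw [eq_inv_of_mul_eq_one_left h1, inv_inv, h3]; exact one_mem _
    · rw [h2]; exact mem_zpowers _

theorem edge {H : Type*} [Group H] {x y v : H} (hx : x * x = 1) (hy : y * y = 1) (hv : v * v = 1)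
    (h : (x * y) ^ 3 = 1) (h1 : (v * x) ^ 2 = 1) (h2 : (v * y) ^ 2 = 1) : x * y = ⁅x * v, x * y⁆ := by
  have e : ∀ {a : H}, a * a = 1 → a⁻¹ = a := fun h => inv_eq_of_mul_eq_one_left h
  have c : ∀ {a : H}, a * a = 1 → (v * a) ^ 2 = 1 → v * a = a * v := fun ha h => by
    rw [← e ((pow_two _).symm.trans h), mul_inv_rev, e ha, e hv]
  have h3 : v * (x * y) * v = x * y := by
    rw [← mul_assoc, c hx h1, mul_assoc x, c hy h2, mul_assoc, mul_assoc, hv, mul_one]
  have h4 : ⁅x * v, x * y⁆ = x * (v * (x * y) * v) * x * (x * y)⁻¹ := by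
    rw [commutatorElement_def, mul_inv_rev x v, e hx, e hv]; simp only [mul_assoc]
  have h5 : y * x = (x * y)⁻¹ := by rw [mul_inv_rev, e hx, e hy]
  rw [h4, h3, ← mul_assoc, hx, one_mul, eq_mul_inv_iff_mul_eq, h5, eq_inv_iff_mul_eq_one, ← h, pow_succ,
    pow_two]

/-- the triple cover -/
noncomputable def X : Subgroup W := Ψ.range ⊓ (commutator Fi24).comap (MonoidHom.snd _ _)

theorem pair_mem (x y : Fi24.Gen) : fn (Fi24P.code x) * fn (Fi24P.code y) ∈ X :=
  ⟨⟨FreeGroup.of x * FreeGroup.of y, by simp [Ψ]⟩, (mul_mem_iff_of_index_two Fi24P.index_commutator).2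
    (iff_of_false (el_nmem x) (el_nmem y))⟩

theorem edge_mem (x y v : Fi24.Gen) (h : coxLabel Fi24.edges x y = 3 ∧ coxLabel Fi24.edges v x = 2 ∧
    coxLabel Fi24.edges v y = 2) : fn (Fi24P.code x) * fn (Fi24P.code y) ∈ ⁅X, X⁆ := by
  have sq : ∀ x, fn (Fi24P.code x) * fn (Fi24P.code x) = 1 := fun x => by
    simpa [coxLabel] using cox_fn x x
  have h1 := cox_fn x y
  have h2 := cox_fn v x
  have h3 := cox_fn v y
  rw [h.1] at h1; rw [h.2.1] at h2; rw [h.2.2] at h3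
  rw [edge (sq x) (sq y) (sq v) h1 h2 h3]
  exact commutator_mem_commutator (pair_mem x v) (pair_mem x y)

theorem t_mem : t ∈ ⁅X, X⁆ := by
  have sq : ∀ x, fn (Fi24P.code x) * fn (Fi24P.code x) = 1 := fun x => by
    simpa [coxLabel] using cox_fn x x
  have tr : ∀ x y z, fn (Fi24P.code x) * fn (Fi24P.code y) ∈ ⁅X, X⁆ →
      fn (Fi24P.code y) * fn (Fi24P.code z) ∈ ⁅X, X⁆ → fn (Fi24P.code x) * fn (Fi24P.code z) ∈ ⁅X, X⁆ :=
    fun x y z h1 h2 => by
      have := mul_mem h1 h2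
      rwa [mul_assoc, ← mul_assoc (fn (Fi24P.code y)), sq, one_mul] at this
  have h := mul_mem (edge_mem .d .c .l (by decide)) (mul_mem (edge_mem .b .a .l (by decide))
    (mul_mem (edge_mem .k .l .d (by decide)) (mul_mem (edge_mem .d .e .l (by decide))
    (mul_mem (edge_mem .f .g .l (by decide)) (mul_mem (tr _ _ _ (edge_mem .j .g .l (by decide))
    (tr _ _ _ (edge_mem .g .f .l (by decide)) (tr _ _ _ (edge_mem .f .e .l (by decide))
    (edge_mem .e .d .l (by decide))))) (edge_mem .h .i .l (by decide)))))))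
  rw [← x2_fn]
  refine pow_mem ?_ 17
  simpa only [List.map_cons, List.map_nil, List.prod_cons, List.prod_nil, mul_one, mul_assoc,
    Fi24P.code] using h

theorem orderOf_t : orderOf t = 3 := by
  have h0 : (0 : ZMod 3) + vb true false ≠ 0 := by decide
  have : Fact (Nat.Prime 3) := ⟨Nat.prime_three⟩
  refine orderOf_eq_prime (Prod.ext (Equiv.ext fun ⟨p, v⟩ => ?_) (by simp [t])) fun h => ?_
  · show (τ _ ^ 3) (p, v) = (p, v)
    simp only [pow_succ, pow_zero, one_mul, Equiv.Perm.mul_apply, τ_apply]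
    generalize vb _ _ = c
    congr 1; revert v c; decide
  · have h1 : τ K24.full (0, 0) = (0, 0) := by rw [show τ K24.full = 1 from congrArg Prod.fst h]; rfl
    rw [τ_apply, testBit_full, decide_eq_true T24.pos] at h1
    exact h0 (congrArg Prod.snd h1)

theorem lb : H63.LB Fi24' 3 := by
  let ξ : X →* Fi24' := ((MonoidHom.snd _ _).comp X.subtype).codRestrict _ fun x => x.2.2
  have ht : t ∈ X := commutator_le.2 (fun a ha b hb => by
    rw [commutatorElement_def]; exact mul_mem (mul_mem (mul_mem ha hb) (inv_mem ha)) (inv_mem hb)) t_mem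
  have h := H63.LB.of_ext ξ (fun g => ?_) (fun x hx => ?_) (zpowers ⟨t, ht⟩)
    (zpowers_le.2 (Subtype.ext rfl)) (zpowers_le.2 ?_)
  · rwa [Nat.card_zpowers, ← orderOf_coe, orderOf_t] at h
  · obtain ⟨w, hw⟩ := PresentedGroup.mk_surjective _ g.1
    exact ⟨⟨Ψ w, ⟨w, rfl⟩, by show (Ψ w).2 ∈ _root_.commutator Fi24; rw [Ψ_snd, hw]; exact g.2⟩,
      Subtype.ext ((Ψ_snd w).trans hw)⟩
  · obtain ⟨_, ⟨w, rfl⟩, h1⟩ := x
    obtain ⟨i, hi⟩ := Ψ_ker ((Ψ_snd w).symm.trans (congrArg Subtype.val hx))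
    refine mem_center_iff.2 fun ⟨_, ⟨u, rfl⟩, h2⟩ => Subtype.ext ?_
    show Ψ u * Ψ w = Ψ w * Ψ u
    rw [← hi]
    exact ((cj_eq_self_iff.1 ((Ψ_mem u).1 h2)).zpow_right i).eq
  · have h1 := t_mem
    rw [← map_subtype_commutator] at h1
    obtain ⟨x, hx, e⟩ := h1
    exact (Subtype.ext e : x = ⟨t, ht⟩) ▸ hx

end Cfsg.Agent.H96.Mu
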