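import Cfsg.Agent.H96.MuA
import Cfsg.Agent.H96.MuC
import Cfsg.Agent.H96.MuL

/-! An extension of Fi24 that is central over Fi24' splits modulo a subgroup of order at most 3. -/

set_option autoImplicit false

namespace Cfsg.Agent.H96.Mu

open Cfsg.Agent.H58 Cfsg.Agent.H95 Cfsg.Agent.H52.Fi Cfsg.Spor Subgroup
open scoped commutatorElement

theorem tab : TabN T24.dat Tb24.tb := Tb24.tab

theorem gen : Gen T24 := fun K hK => Fi24P.eq_top K fun x hx => hK x
  (by simp only [List.mem_cons, List.not_mem_nil, or_false] at hx; omega)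
  (by simp only [List.mem_cons, List.not_mem_nil, or_false] at hx; show x ≤ 12; omega)

theorem el_D (x : Fi24.Gen) : T24.el (Fi24P.code x) ∈ D24 := T24.el_mem (code_bd x).1 (code_bd x).2

theorem comm_el (x y : Fi24.Gen) (h : x = y ∨ coxLabel Fi24.edges x y = 2) :
    Commute (T24.el (Fi24P.code x)) (T24.el (Fi24P.code y)) := by
  rcases h with rfl | h
  · rfl
  have h1 := cox_el x y
  rw [h, pow_two] at h1
  rw [Commute, SemiconjBy, ← inv_eq_of_mul_self h1, mul_inv_rev, TT.inv_eq tt24 (el_D x),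
    TT.inv_eq tt24 (el_D y)]

theorem wv_one (y : ℕ) : wv T24.el [y] = T24.el y := by simp [wv]

theorem map_cj {H H' : Type*} [Group H] [Group H'] (f : H →* H') (a b : H) :
    f (cj a b) = cj (f a) (f b) := by simp [cj_def]

theorem prod_cj {H : Type*} [Group H] (a : H) (l : List H) : (l.map (cj a)).prod = cj a l.prod := by
  induction l with
  | nil => simp [cj_def]
  | cons b l ih => rw [List.map_cons, List.prod_cons, ih, List.prod_cons, cj_mul_cj]

variable {E : Type} [Group E] (π : E →* Fi24) (s : E)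

/-- the neighbours of `s` -/
def G1 (y : E) : Prop := π y ∈ nb D24 l24 ∧ s * y ∈ F π l24

/-- the lifts in the sheet of `s` -/
def Good (p : E) : Prop := π p ∈ D24 ∧ ∀ y, G1 π s y → Commute (π y) (π p) → y * p ∈ F π (π y)

/-- the canonical lift of a centralizer -/
def Sx (y : E) : Subgroup E := F π (π y) ⊔ zpowers y

/-- `u` is a product of good lifts of the members of `r`, up to the lift of `C(l)` -/
def Inv (u : E) (r : List Fi24) : Prop :=
  ∃ t : List E, t.map π = r ∧ (∀ x ∈ t, Good π s x) ∧ t.prod⁻¹ * u ∈ Sx π s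

variable {π s}

theorem mem_Sx_F {y u : E} (h : u ∈ F π (π y)) : u ∈ Sx π y := mem_sup_left h

theorem mem_Sx_self (y : E) : y ∈ Sx π y := mem_sup_right (mem_zpowers y)

theorem mem_Sx_of {y u : E} (h : y * u ∈ F π (π y)) : u ∈ Sx π y := by
  simpa using mul_mem (inv_mem (mem_Sx_self y)) (mem_Sx_F h)

theorem Good.mem {p y : E} (hp : Good π s p) (hy : G1 π s y) (h : Commute (π y) (π p)) :
    p ∈ Sx π y := mem_Sx_of (hp.2 y hy h)

namespace Ext

variable [Finite E] (h : Ext π s)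
include h

omit [Finite E] in
theorem sD : π s ∈ D24 := h.ps ▸ l24_mem

theorem G1_sq {y : E} (hy : G1 π s y) : y * y = 1 := h.sq_of h.sD h.sq hy.1.1 (h.ps ▸ hy.2)

theorem mem_Sx {y u : E} (hy : π y ∈ D24) (h1 : y * y = 1) (hu : u ∈ Sx π y) :
    u ∈ F π (π y) ∨ y * u ∈ F π (π y) := by
  have h2 : ∀ {a b : E}, a ∈ F π (π y) → y * (a * b) = a * (y * b) := fun ha => by
    rw [← mul_assoc, (h.comm hy ha).eq, mul_assoc]
  have h3 : ∀ {a b : E}, y * a ∈ F π (π y) → a * b = y * a * (y * b) := fun {a b} ha => by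
    rw [← mul_assoc, ← (h.comm hy ha).eq, mul_self_cancel_left h1]
  let V : Subgroup E :=
    { carrier := {u | u ∈ F π (π y) ∨ y * u ∈ F π (π y)}
      one_mem' := Or.inl (one_mem _)
      mul_mem' := by
        rintro a b (ha | ha) (hb | hb)
        · exact Or.inl (mul_mem ha hb)
        · exact Or.inr (h2 ha ▸ mul_mem ha hb)
        · exact Or.inr (mul_assoc y a b ▸ mul_mem ha hb)
        · exact Or.inl (h3 ha ▸ mul_mem ha hb)
      inv_mem' := by
        rintro a (ha | ha)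
        · exact Or.inl (inv_mem ha)
        · refine Or.inr ?_
          have h4 : y * a * (y * a⁻¹) = 1 := by rw [← h3 ha, mul_inv_cancel]
          exact eq_inv_of_mul_eq_one_right h4 ▸ inv_mem ha }
  exact (sup_le (fun x hx => Or.inl hx) (zpowers_le.2 (Or.inr (h1 ▸ one_mem _))) : Sx π y ≤ V) hu

theorem Sx_one {y u : E} (hy : π y ∈ D24) (h1 : y * y = 1) (hu : u ∈ Sx π y) (h2 : π u = 1) : u = 1 := by
  rcases h.mem_Sx hy h1 hu with h3 | h3
  · exact h.eq_one hy h3 h2
  · exact absurd (by simpa [h2] using (F_mem h3).2) (not_mem_commutator24 hy)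

theorem Sx_move {y u : E} (hy : G1 π s y) (hu : u ∈ Sx π y) (h1 : Commute (π u) l24) : u ∈ Sx π s := by
  have h2 := mem_nb_symm l24_mem hy.1
  rcases h.mem_Sx hy.1.1 (h.G1_sq hy) hu with h3 | h3
  · exact mem_Sx_F (h.ps ▸ h.move hy.1.1 h2 h3 h1)
  · have h4 := h.move hy.1.1 h2 h3 (map_mul π y u ▸ hy.1.2.2.symm.mul_left h1)
    have h5 : y ∈ Sx π s := mem_Sx_of (h.ps ▸ hy.2)
    exact (mul_mem_cancel_left h5).1 (mem_Sx_F (h.ps ▸ h4))

theorem comm_s {u : E} (hu : u ∈ Sx π s) : Commute u s := by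
  rcases h.mem_Sx h.sD h.sq hu with h3 | h3
  · exact (h.comm h.sD h3).symm
  · simpa using ((Commute.refl s).inv_right.mul_right (h.comm h.sD h3)).symm

omit [Finite E] in
theorem exists_Sx {g : Fi24} (hg : Commute g l24) : ∃ u ∈ Sx π s, π u = g := by
  by_cases h1 : g ∈ L
  · obtain ⟨f, hf, e⟩ := h.lift_F l24_mem hg h1
    exact ⟨f, mem_Sx_F (h.ps ▸ hf), e⟩
  · obtain ⟨f, hf, e⟩ := h.lift_F l24_mem ((Commute.refl _).mul_left hg)
      (mul_L.2 (iff_of_false (not_mem_commutator24 l24_mem) h1))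
    exact ⟨s * f, mul_mem (mem_Sx_self s) (mem_Sx_F (h.ps ▸ hf)), by
      rw [map_mul, e, h.ps, mul_self_cancel_left (TT.mul_self tt24 l24_mem)]⟩

omit [Finite E] in
theorem exists_G1 {x : Fi24} (hx : x ∈ nb D24 l24) : ∃ y, π y = x ∧ G1 π s y := by
  obtain ⟨f, hf, e⟩ := h.lift_F l24_mem ((Commute.refl _).mul_left hx.2.2.symm) (pair_L l24_mem hx.1)
  have h1 : π (s * f) = x := by rw [map_mul, e, h.ps, mul_self_cancel_left (TT.mul_self tt24 l24_mem)]
  exact ⟨s * f, h1, h1 ▸ hx, by rwa [mul_self_cancel_left h.sq]⟩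

theorem G1_good {x : E} (hx : G1 π s x) : Good π s x := ⟨hx.1.1, fun y hy h1 => by
  have h2 : y * x ∈ F π l24 := by
    simpa [mul_assoc, inv_eq_of_mul_self (h.G1_sq hy)] using mul_mem (inv_mem hy.2) hx.2
  exact h.move l24_mem hy.1 h2 (map_mul π y x ▸ (Commute.refl _).mul_left h1.symm)⟩

theorem good_s : Good π s s := ⟨h.sD, fun y hy h1 => by
  have h2 : y * s ∈ F π l24 := by
    simpa [inv_eq_of_mul_self (h.G1_sq hy), inv_eq_of_mul_self h.sq] using inv_mem hy.2
  exact h.move l24_mem hy.1 h2 (map_mul π y s ▸ (Commute.refl _).mul_left h1.symm)⟩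

omit [Finite E] in
theorem G1_cj {u y : E} (hu : Commute u s) (hy : G1 π s y) : G1 π s (cj u y) := by
  have h1 : Commute (π u) l24 := h.ps ▸ hu.map π
  have h2 := F_cj u hy.2
  rw [cj_of_commute h1, cj_mul_cj, cj_of_commute hu] at h2
  exact ⟨map_cj π u y ▸ cj_mem_nb (fun g _ h => conj24 g h) h1 hy.1, h2⟩

omit [Finite E] in
theorem good_cj {u p : E} (hu : Commute u s) (hp : Good π s p) : Good π s (cj u p) := by
  refine ⟨map_cj π u p ▸ conj24 _ hp.1, fun y hy h1 => ?_⟩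
  have h2 := F_cj u (hp.2 _ (h.G1_cj hu.inv_left hy) (by
    rw [map_cj, map_inv, commute_cj_left, inv_inv, ← map_cj]; exact h1))
  rwa [cj_mul_cj, cj_cj_inv, ← map_cj, cj_cj_inv] at h2

theorem adj {k y z : E} (hy : G1 π s y) (hz : G1 π s z) (h1 : Commute (π z) (π y))
    (h2 : Commute (π z) (π k)) (h3 : y * k ∈ F π (π y)) : z * k ∈ F π (π z) := by
  have h4 : y * k ∈ F π (π z) := by
    by_cases e : π z = π y
    · rwa [e]
    · exact h.move hy.1.1 ⟨hz.1.1, e, h1.symm⟩ h3 (map_mul π y k ▸ h1.symm.mul_left h2.symm)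
  have := mul_mem ((h.G1_good hy).2 z hz h1) h4
  rwa [mul_assoc, mul_self_cancel_left (h.G1_sq hy)] at this

theorem good_k {k b g : E} (hb : G1 π s b) (e1 : π b = T24.el 2) (e2 : π k = k24)
    (h1 : b * k ∈ F π (π b)) (hg : g ∈ F π l24) (e3 : π g = wv T24.el (2 :: rfW b2))
    (h2 : Commute g k) : Good π s k := by
  let Q : Set Fi24 := {x | ∀ y, π y = x → G1 π s y → y * k ∈ F π x}
  have hQ : ∀ u : E, Commute u s → Commute u k → ∀ x, cj (π u) x ∈ Q → x ∈ Q := by
    rintro u a1 a2 _ hx y rfl hy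
    have := F_cj u⁻¹ (hx _ (map_cj π u y) (h.G1_cj a1 hy))
    rwa [cj_mul_cj, cj_inv_cj, cj_of_commute a2.inv_left, map_inv, cj_inv_cj] at this
  have h3 : ∀ x : Fi24.Gen, (x = .b ∨ coxLabel Fi24.edges x .b = 2) ∧ coxLabel Fi24.edges x .k = 2 →
      T24.el (Fi24P.code x) ∈ Q := fun x hx y e hy =>
    e ▸ h.adj hb hy (by rw [e, e1]; exact comm_el x .b hx.1)
      (by rw [e, e2, ← T24_el_k]; exact comm_el x .k (Or.inr hx.2)) h1
  have h4 : T24.el 3 ∈ Q := fun y e hy => by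
    obtain ⟨z, e4, hz⟩ := h.exists_G1 (letter_mem_nb24 5 (by decide) (by decide))
    exact e ▸ h.adj hz hy (by rw [e, e4]; exact comm_el .c .e (by decide))
      (by rw [e, e2, ← T24_el_k]; exact comm_el .c .k (by decide)) (e4 ▸ h3 .e (by decide) z e4 hz)
  have h5 : ∀ y, 1 ≤ y → y ≤ 10 → T24.el y ∈ Q → ∀ x ∈ D24, cj (wv T24.el [y]) x ∈ Q → x ∈ Q :=
    fun y a1 a2 a3 x _ => by
      obtain ⟨z, e4, hz⟩ := h.exists_G1 (letter_mem_nb24 y a1 a2)
      rw [wv_one, ← e4]
      have a4 := (Commute.refl z).inv_right.mul_right (h.comm hz.1.1 (e4 ▸ a3 z e4 hz : z * k ∈ F π (π z)))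
      rw [inv_mul_cancel_left] at a4
      exact hQ z (h.comm_s (mem_Sx_of (h.ps ▸ hz.2))) a4 x
  have h6 := (T24.subset_of_dif cov).trans (T24.bfs_subset (Q := Q) (ws := ws) (by
    simp only [ws, List.forall_mem_cons]
    exact ⟨h5 2 (by decide) (by decide) (h3 .b (by decide)), h5 3 (by decide) (by decide) h4,
      h5 4 (by decide) (by decide) (h3 .d (by decide)), h5 5 (by decide) (by decide) (h3 .e (by decide)),
      h5 6 (by decide) (by decide) (h3 .f (by decide)), h5 7 (by decide) (by decide) (h3 .g (by decide)),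
      h5 8 (by decide) (by decide) (h3 .h (by decide)), h5 9 (by decide) (by decide) (h3 .i (by decide)),
      h5 10 (by decide) (by decide) (h3 .j (by decide)),
      fun x _ => e3 ▸ hQ g (h.comm_s (mem_Sx_F (h.ps ▸ hg))) h2 x, by simp⟩) _ (by
    rw [show K24 = T24.dat from rfl, T24.st_sing (by decide), T24.val_letter]
    exact Set.singleton_subset_iff.2 (h3 .b (by decide))))
  rw [T24.st_land, show K24 = T24.dat from rfl, T24.st_perp (by decide), T24.st_perp (by decide),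
    T24_val_l, T24_val_k] at h6
  exact ⟨e2 ▸ k24_mem, fun y hy hc => h6 ⟨hy.1, hy.1.1,
    fun e => not_commute_lk24 (e ▸ hy.1.2.2), e2 ▸ hc.symm⟩ y rfl hy⟩

section
variable {k : E} (hk : Good π s k) (e : π k = k24)
include hk e

theorem exists_good {p : Fi24} (hp : p ∈ D24) : ∃ x, π x = p ∧ Good π s x := by
  have := Fi24P.finite
  by_cases h1 : p = l24
  · exact ⟨s, h1 ▸ h.ps, h.good_s⟩
  by_cases h2 : Commute l24 p
  · obtain ⟨y, e1, hy⟩ := h.exists_G1 ⟨hp, h1, h2⟩
    exact ⟨y, e1, h.G1_good hy⟩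
  obtain ⟨g, hg, e1⟩ := irred24.1.exists_conj_Ad class24 irred24.2 l24_mem k24_mem hp not_commute_lk24 h2
  obtain ⟨u, hu, rfl⟩ := h.exists_Sx (commute_of_mem_closure_Perp hg)
  exact ⟨cj u k, by rw [map_cj, e, e1], h.good_cj (h.comm_s hu) hk⟩

theorem step {u γ : E} {r r2 : List Fi24} {y : Fi24} (h1 : Inv π s u r) (hγ : γ ∈ Sx π s)
    (hy : y ∈ D24) (h2 : Commute k24 y) (h3 : Commute l24 y) (h4 : ∀ x ∈ r, Commute (cj (π γ) x) y)
    (h5 : ∀ x ∈ r2, x ∈ D24 ∧ Commute x y)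
    (h6 : Commute (r2.prod⁻¹ * (k24 * cj (π γ) r.prod)) l24) : Inv π s (k * γ * u) r2 := by
  obtain ⟨t, rfl, a1, a2⟩ := h1
  obtain ⟨t2, rfl, a3⟩ : ∃ t2 : List E, t2.map π = r2 ∧ ∀ x ∈ t2, Good π s x := by
    clear h6
    induction r2 with
    | nil => exact ⟨[], rfl, by simp⟩
    | cons x r ih =>
      obtain ⟨t2, rfl, a3⟩ := ih fun z hz => h5 z (List.mem_cons_of_mem _ hz)
      obtain ⟨z, rfl, hz⟩ := h.exists_good hk e (h5 x List.mem_cons_self).1
      exact ⟨z :: t2, rfl, List.forall_mem_cons.2 ⟨hz, a3⟩⟩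
  obtain ⟨z, rfl, hz⟩ := h.exists_G1 ⟨hy, fun e1 => not_commute_lk24 (e1 ▸ h2.symm), h3⟩
  have a4 : t2.prod⁻¹ * (k * cj γ t.prod) ∈ Sx π z := by
    refine mul_mem (inv_mem (list_prod_mem fun x hx => (a3 x hx).mem hz
      (h5 _ (List.mem_map_of_mem hx)).2.symm)) (mul_mem (hk.mem hz (e ▸ h2.symm)) ?_)
    rw [← prod_cj]
    refine list_prod_mem fun x hx => ?_
    obtain ⟨w, hw, rfl⟩ := List.mem_map.1 hx
    exact (h.good_cj (h.comm_s hγ) (a1 w hw)).mem hz
      (map_cj π γ w ▸ (h4 _ (List.mem_map_of_mem hw)).symm)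
  have a5 := h.Sx_move hz a4 (by simpa only [map_mul, map_inv, map_cj, map_list_prod, e] using h6)
  refine ⟨t2, rfl, a3, ?_⟩
  convert mul_mem a5 (mul_mem hγ a2) using 1
  simp [cj_def, mul_assoc]

theorem chk_sound {γ : E} (hγ : γ ∈ Sx π s) (e1 : π γ = wv T24.el gw) (t : List (Pt × List Pt)) :
    ∀ (r : List Pt) (u : E), r.all K24.okP = true → Inv π s u (r.map T24.val) → chk t r = true →
      (k * γ) ^ t.length * u ∈ Sx π s := by
  induction t with
  | nil =>
    intro r u _ h1 h2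
    obtain rfl : r = [] := List.isEmpty_iff.1 h2
    obtain ⟨t, a1, -, a2⟩ := h1
    obtain rfl : t = [] := List.map_eq_nil_iff.1 a1
    simpa using a2
  | cons c t ih =>
    intro r u h0 h1 h2
    have h3 : (c.2.all K24.okP && tfix T24.dat Tb24.tb ([11] :: [12] :: ((r.map fun p =>
      rfW (gw ++ p.1, p.2)) ++ c.2.map rfW)) [c.1] && tfix T24.dat Tb24.tb [(c.2.map rfW).flatten.reverse
        ++ 11 :: (r.map fun p => rfW (gw ++ p.1, p.2)).flatten] [([], 12)] && chk t c.2) = true := h2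
    simp only [Bool.and_eq_true] at h3
    obtain ⟨⟨⟨a1, a2⟩, a3⟩, a4⟩ := h3
    have b0 : T24.dat.okP c.1 = true := by
      simp only [tfix, Bool.and_eq_true, List.all_cons] at a2
      exact a2.2.1.1
    have b1 : ∀ p ∈ c.2, T24.dat.okP p = true := List.all_eq_true.1 a1
    have b2 : ∀ p ∈ r, wv T24.el (rfW (gw ++ p.1, p.2)) = cj (π γ) (T24.val p) := fun p hp => by
      have b3 := T24.okP_iff.1 (List.all_eq_true.1 h0 p hp)
      rw [T24.wv_rfW (p := (gw ++ p.1, p.2)) (T24.okP_iff.2 ⟨b3.1, ?_⟩), e1, LModel.val, LModel.val,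
        T24.wv_append, cj_mul]
      rw [Dat.okW, List.all_append, Bool.and_eq_true]
      exact ⟨by decide, b3.2⟩
    have b3 := fun w hw => tfix_sound tab a2 w hw c.1 List.mem_cons_self
    have b4 := tfix_sound tab a3 _ List.mem_cons_self _ List.mem_cons_self
    have b5 : T24.dat.okW (c.2.map rfW).flatten = true := by
      simp only [tfix, Bool.and_eq_true, List.all_cons, Dat.okW, List.all_append, List.all_reverse] at a3
      exact a3.1.1.1
    rw [T24_val_l, T24.wv_append, T24.wv_reverse b5, T24.wv_cons, T24_el_k, wv_flatten, wv_flatten,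
      List.map_map, List.map_map, List.map_congr_left (f := wv T24.el ∘ rfW) (g := T24.val)
        fun p hp => T24.wv_rfW (b1 p hp), List.map_congr_left (f := wv T24.el ∘ fun p : Pt =>
        rfW (gw ++ p.1, p.2)) (g := cj (π γ) ∘ T24.val) b2, ← List.map_map, prod_cj] at b4
    rw [List.length_cons, pow_succ, mul_assoc]
    refine ih c.2 _ a1 (h.step hk e h1 hγ (T24.val_mem b0) ?_ ?_ (fun x hx => ?_) (fun x hx => ?_) b4) a4
    · rw [← T24_el_k, ← wv_one]; exact b3 _ (by simp)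
    · rw [← T24_el_l, ← wv_one]; exact b3 _ (by simp)
    · obtain ⟨p, hp, rfl⟩ := List.mem_map.1 hx
      rw [← b2 p hp]
      exact b3 _ (.tail _ (.tail _ (List.mem_append_left _ (List.mem_map.2 ⟨p, hp, rfl⟩))))
    · obtain ⟨p, hp, rfl⟩ := List.mem_map.1 hx
      refine ⟨T24.val_mem (b1 p hp), ?_⟩
      rw [← T24.wv_rfW (b1 p hp)]
      exact b3 _ (.tail _ (.tail _ (List.mem_append_right _ (List.mem_map.2 ⟨p, hp, rfl⟩))))

theorem split : ∃ ρ : Fi24 →* E, ∀ x, π (ρ x) = x := by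
  choose f e1 hf using fun x => h.exists_good hk e (el_D x)
  have h1 : ∀ x y : Fi24.Gen, ∃ w ∈ Fi24P.allG, Fi24P.code w ≤ 10 ∧
      (w = x ∨ coxLabel Fi24.edges w x = 2) ∧ (w = y ∨ coxLabel Fi24.edges w y = 2) := by
    intro x y; cases x <;> cases y <;> decide
  have h2 : ∀ x y, ∃ z, G1 π s z ∧ f x ∈ Sx π z ∧ f y ∈ Sx π z := fun x y => by
    obtain ⟨w, -, a1, a2, a3⟩ := h1 x y
    obtain ⟨z, e2, hz⟩ := h.exists_G1 (letter_mem_nb24 _ (code_bd w).1 a1)
    exact ⟨z, hz, (hf x).mem hz (by rw [e2, e1]; exact comm_el w x a2),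
      (hf y).mem hz (by rw [e2, e1]; exact comm_el w y a3)⟩
  have h3 : ∀ x, (x = .l ∨ coxLabel Fi24.edges x .l = 2) → f x ∈ Sx π s := fun x hx => by
    obtain ⟨z, hz, a1, -⟩ := h2 x x
    exact h.Sx_move hz a1 (by rw [e1, ← T24_el_l]; exact comm_el x .l hx)
  have h4 : ∀ w, π (FreeGroup.lift f w) = Fi24P.π w := fun w =>
    DFunLike.congr_fun (show π.comp (FreeGroup.lift f) = Fi24P.π from
      FreeGroup.ext_hom _ _ fun x => by simp [e1, π_of]) w
  have h5 : ∀ r ∈ coxRelators Fi24.edges ∪ {r | r ∈ Fi24.extra}, FreeGroup.lift f r = 1 := by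
    intro r hr
    have h6 := (h4 r).trans (π_rel hr)
    rcases hr with ⟨x, -, y, -, rfl⟩ | hr
    · obtain ⟨z, hz, a1, a2⟩ := h2 x y
      refine h.Sx_one hz.1.1 (h.G1_sq hz) ?_ h6
      simp only [map_pow, map_mul, FreeGroup.lift_apply_of]
      exact pow_mem (mul_mem a1 a2) _
    · refine h.Sx_one h.sD h.sq ?_ h6
      simp only [Fi24.extra, Set.mem_ofPred_eq, List.mem_cons, List.not_mem_nil, or_false] at hr
      have ha := h3 .a (by decide); have hb := h3 .b (by decide); have hc := h3 .c (by decide)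
      have hd := h3 .d (by decide); have he := h3 .e (by decide); have hf' := h3 .f (by decide)
      have hg := h3 .g (by decide); have hh := h3 .h (by decide); have hi := h3 .i (by decide)
      have hj := h3 .j (by decide); have hl := h3 .l (by decide)
      clear h3
      rcases hr with rfl | rfl <;> simp only [map_pow, map_mul, map_inv, FreeGroup.lift_apply_of]
      · apply_rules [mul_mem, inv_mem, pow_mem]
      · have a1 : f .d * f .c * f .b * f .a ∈ Sx π s := by apply_rules [mul_mem]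
        have a2 : f .l * f .d * f .e * f .f * f .g * f .j * f .d * f .h * f .i ∈ Sx π s := by
          apply_rules [mul_mem]
        have a3 := h.chk_sound (hf .k) ((e1 .k).trans T24_el_k) (mul_mem a2 a1)
          (by simp [gw, wv, e1, Fi24P.code, mul_assoc]) steps [] 1 rfl ⟨[], rfl, by simp, by simp⟩ ck
        have a4 := cj_mem a1 a3
        rw [mul_one, cj_def, ← conj_pow, show steps.length = 17 from rfl] at a4
        simpa only [mul_assoc, mul_inv_cancel, mul_one, mul_inv_rev, mul_inv_cancel_left] using a4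
  exact ⟨PresentedGroup.toGroup h5, fun x => by
    obtain ⟨w, rfl⟩ := PresentedGroup.mk_surjective _ x
    exact h4 w⟩

end

theorem bound : ∃ u, π u = 1 ∧ u ^ 3 = 1 ∧
    ∀ x ∈ ⁅L.comap π, L.comap π⁆, π x = 1 → x ∈ zpowers u := by
  have hb2 : T24.dat.okP b2 = true := by decide
  obtain ⟨b, e1, hb⟩ := h.exists_G1 (letter_mem_nb24 2 (by decide) (by decide))
  obtain ⟨f, hf, e2⟩ := h.lift_F (x := π b * k24) hb.1.1 ((Commute.refl _).mul_left
    (by rw [e1, ← T24_el_k]; exact comm_el .k .b (by decide))) (pair_L hb.1.1 k24_mem)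
  have c1 := tfix_sound tab g1 _ List.mem_cons_self
  obtain ⟨g, hg, e3⟩ := h.lift_F l24_mem (T24_val_l ▸ c1 ([], 12) (by simp)) (by
    rw [T24.wv_cons, T24.wv_rfW hb2]; exact pair_L (el_D .b) (T24.val_mem hb2))
  have e4 : π (b * f) = k24 := by rw [map_mul, e2, mul_self_cancel_left (TT.mul_self tt24 hb.1.1)]
  have h1 : b * (b * f) ∈ F π (π b) := by rwa [mul_self_cancel_left (h.G1_sq hb)]
  generalize b * f = k at e4 h1
  have h2 : k * k = 1 := h.sq_of hb.1.1 (h.G1_sq hb) (e4 ▸ k24_mem) h1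
  have h3 : g ^ 3 = 1 := h.eq_one l24_mem (pow_mem hg 3) (by
    have := teq_sound tab gen g2
    rw [show [0, 0, 0] = List.replicate 3 0 from rfl, wv_wd_rep] at this
    rw [map_pow, e3]; exact this)
  have h4 : π ⁅g, k⁆ = 1 := by
    rw [map_commutatorElement, commutatorElement_eq_one_iff_commute, e3, e4]
    exact T24_val_k ▸ c1 ([], 11) (by simp)
  have h5 : cj g k = ⁅g, k⁆ * k := by simp [cj_def, commutatorElement_def]
  generalize hu : ⁅g, k⁆ = u at h4 h5
  have h6 : cj g u = u := cj_of_commute (h.cen u h4 g (F_mem hg).2).symm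
  have h7 : u ^ 3 = 1 := by
    have : cj (g ^ 3) k = u ^ 3 * k := by
      simp only [pow_succ, pow_zero, one_mul, cj_mul, h5, cj_mul_cj, h6, mul_assoc]
    rw [h3, cj_one] at this
    exact mul_right_cancel (b := k) (by rw [← this, one_mul])
  have h8 : cj k u = u⁻¹ := by
    have : u * k * (u * k) = 1 := by rw [← h5, ← cj_mul_cj, h2]; simp [cj_def]
    rw [cj_def, inv_eq_of_mul_self h2, eq_inv_iff_mul_eq_one, ← mul_left_cancel_iff (a := u),
      ← mul_right_cancel_iff (a := u⁻¹)]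
    simpa [mul_assoc] using this
  have hN : (zpowers u).Normal := ⟨fun n ⟨i, hi⟩ x => by
    rw [← hi, ← conj_zpow]
    refine zpow_mem ?_ i
    by_cases a1 : π x ∈ L
    · rw [← cj_def, cj_of_commute (h.cen u h4 x a1).symm]; exact mem_zpowers u
    · have a2 := h.cen u h4 (k⁻¹ * x) (by
        rw [map_mul, map_inv, e4, TT.inv_eq tt24 k24_mem]
        exact mul_L.2 (iff_of_false (not_mem_commutator24 k24_mem) a1))
      rw [← cj_def, ← mul_inv_cancel_left k x, cj_mul, cj_of_commute a2.symm, h8]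
      exact inv_mem (mem_zpowers u)⟩
  let q := QuotientGroup.mk' (zpowers u)
  let π' : E ⧸ zpowers u →* Fi24 := QuotientGroup.lift _ π (zpowers_le.2 h4)
  have hq : ∀ x, π' (q x) = π x := fun _ => rfl
  have h' : Ext π' (q s) := ⟨fun x => let ⟨y, e⟩ := h.surj x; ⟨q y, e⟩, fun a a1 x a2 => by
    obtain ⟨a, rfl⟩ := QuotientGroup.mk'_surjective _ a
    obtain ⟨x, rfl⟩ := QuotientGroup.mk'_surjective _ x
    exact (h.cen a a1 x a2).map q, by rw [← map_mul, h.sq, map_one], h.ps⟩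
  have hF : ∀ {C : Subgroup Fi24} {x : E}, x ∈ ⁅C.comap π, C.comap π⁆ →
      q x ∈ ⁅C.comap π', C.comap π'⁆ := fun {C x} hx => by
    have a1 : (C.comap π).map q ≤ C.comap π' := map_le_iff_le_comap.2 fun _ h => h
    exact commutator_mono a1 a1 (map_commutator _ _ q ▸ mem_map_of_mem q hx)
  obtain ⟨ρ, hρ⟩ := h'.split (h'.good_k (k := q k) (b := q b) (g := q g) ⟨hb.1, map_mul q s b ▸ hF hb.2⟩
    e1 e4 (map_mul q b k ▸ hF h1) (hF hg) e3 (commutatorElement_eq_one_iff_commute.1 (by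
      rw [← map_commutatorElement, hu]; exact (QuotientGroup.eq_one_iff u).2 (mem_zpowers u)))) e4
  refine ⟨u, h4, h7, fun x hx a1 => (QuotientGroup.eq_one_iff x).1 ?_⟩
  have a2 : ⁅L.comap π', L.comap π'⁆ ≤ ρ.range := (comm_le (B := L.comap π' ⊓ ρ.range) inf_le_left
    fun y hy => ⟨ρ (π' y), ⟨show π' _ ∈ L by rwa [hρ], _, rfl⟩, fun z hz => h'.cen _ (by simp [hρ]) z hz⟩).trans
    ((comm_le_self _).trans inf_le_right)
  obtain ⟨y, hy⟩ := a2 (hF hx)
  have a3 : y = 1 := by rw [← hρ y, hy, hq, a1]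
  rw [a3, map_one] at hy
  exact hy.symm

end Ext

end Cfsg.Agent.H96.Mu
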