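import Cfsg.Agent.H96.MuB

/-! The multiplier of Fi24' is generated by an element of order dividing 3. -/

set_option autoImplicit false

namespace Cfsg.Agent.H96.Mu

open Cfsg.Agent.H58 Cfsg.Agent.H95 Cfsg.Spor Subgroup

theorem two_cases : ∀ a : Multiplicative (ZMod 2), a = 1 ∨ a = Multiplicative.ofAdd 1 := by decide

theorem ub : H63.UB Fi24' [3] := by
  intro Γ _ _ σ hσ
  have hl : l24 * l24 = 1 := TT.mul_self tt24 l24_mem
  let τ : MulAut L := MulAut.conjNormal l24
  have hτ : ∀ x, τ (τ x) = x := fun x => by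
    rw [← MulAut.mul_apply, ← map_mul, hl, map_one, MulAut.one_apply]
  let X : Subgroup (Γ × Γ) := (σ.comp (MonoidHom.snd Γ Γ)).eqLocus
    (τ.toMonoidHom.comp (σ.comp (MonoidHom.fst Γ Γ)))
  have hX : ∀ x : X, σ x.1.2 = τ (σ x.1.1) := fun x => x.2
  let sw : MulAut X :=
    { toFun := fun x => ⟨x.1.swap, show σ x.1.1 = τ (σ x.1.2) by rw [hX, hτ]⟩
      invFun := fun x => ⟨x.1.swap, show σ x.1.1 = τ (σ x.1.2) by rw [hX, hτ]⟩
      left_inv := fun _ => rfl
      right_inv := fun _ => rfl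
      map_mul' := fun _ _ => rfl }
  obtain ⟨φ, hφ⟩ := H63.exists_zmod_hom 2 sw (by rw [pow_two]; rfl)
  obtain ⟨ψ, hψ⟩ := H63.exists_zmod_hom 2 l24 (by rw [pow_two, hl])
  let pr : X →* Γ := (MonoidHom.fst Γ Γ).comp X.subtype
  have hpr : Function.Surjective pr := fun a =>
    let ⟨b, hb⟩ := hσ.1 (τ (σ a)); ⟨⟨(a, b), hb⟩, rfl⟩
  let π : X ⋊[φ] Multiplicative (ZMod 2) →* Fi24 := SemidirectProduct.lift
    (L.subtype.comp (σ.comp pr)) ψ fun a => by
      rcases two_cases a with rfl | rfl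
      · simp only [map_one]; rfl
      · rw [hφ, hψ]
        exact MonoidHom.ext fun x => congrArg Subtype.val (hX x)
  have hπ : ∀ x, π (SemidirectProduct.inl x) = σ (pr x) := fun x => SemidirectProduct.lift_inl _ _ _ x
  have hs : π (SemidirectProduct.inr (Multiplicative.ofAdd 1)) = l24 :=
    (SemidirectProduct.lift_inr _ _ _ _).trans hψ
  have hL : ∀ e, π e ∈ L → ∃ x, e = SemidirectProduct.inl x := fun e he => by
    refine ⟨e.left, ?_⟩
    rw [← SemidirectProduct.inl_left_mul_inr_right e, map_mul, hπ, mul_mem_cancel_left (σ _).2] at he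
    rcases two_cases e.right with h | h
    · conv_lhs => rw [← SemidirectProduct.inl_left_mul_inr_right e, h, map_one, mul_one]
    · rw [h, hs] at he
      exact absurd he (not_mem_commutator24 l24_mem)
  have : Finite (X ⋊[φ] Multiplicative (ZMod 2)) := Finite.of_equiv _ SemidirectProduct.equivProd.symm
  have h : Ext π (SemidirectProduct.inr (Multiplicative.ofAdd 1)) := ⟨fun g => ?_, fun k hk y hy => ?_,
    by rw [← map_mul]; exact map_one _, hs⟩
  · obtain ⟨u, h1, h2, h3⟩ := h.bound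
    obtain ⟨u, rfl⟩ := hL u (h1 ▸ one_mem _)
    refine ⟨[pr u], List.Forall₂.cons ⟨Subtype.ext ((hπ u).symm.trans h1), ?_⟩ List.Forall₂.nil,
      fun z hz => ?_⟩
    · rw [← map_pow, SemidirectProduct.inl_injective ((map_pow _ u 3).trans (h2.trans (map_one _).symm)),
        map_one]
    · have h4 : z ∈ (_root_.commutator X).map pr := by
        rw [map_commutator_eq, MonoidHom.range_eq_top.2 hpr]; exact hσ.2.2 hz
      obtain ⟨x, hx, rfl⟩ := h4
      have h5 : (⊤ : Subgroup X).map SemidirectProduct.inl ≤ L.comap π :=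
        map_le_iff_le_comap.2 fun y _ => show π _ ∈ L from hπ y ▸ (σ _).2
      have h6 := mem_map_of_mem (SemidirectProduct.inl (φ := φ)) hx
      rw [_root_.commutator_def, map_commutator] at h6
      obtain ⟨i, hi⟩ := h3 (SemidirectProduct.inl x) (commutator_mono h5 h5 h6)
        ((hπ x).trans (congrArg Subtype.val hz))
      rw [← SemidirectProduct.inl_injective ((map_zpow _ u i).trans hi), map_zpow]
      exact zpow_mem (subset_closure (by simp)) i
  · have h1 : ∀ g ∈ L, ∃ e, π e = g := fun g hg => by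
      obtain ⟨x, hx⟩ := (hσ.1.comp hpr) ⟨g, hg⟩
      exact ⟨_, (hπ x).trans (congrArg Subtype.val hx)⟩
    by_cases hg : g ∈ L
    · exact h1 g hg
    · obtain ⟨e, he⟩ := h1 (g * l24) (mul_L.2 (iff_of_false hg (not_mem_commutator24 l24_mem)))
      exact ⟨e * SemidirectProduct.inr (Multiplicative.ofAdd 1),
        by rw [map_mul, he, hs, mul_assoc, hl, mul_one]⟩
  · obtain ⟨k, rfl⟩ := hL k (hk ▸ one_mem _)
    obtain ⟨y, rfl⟩ := hL y hy
    have h1 : σ k.1.1 = 1 := Subtype.ext ((hπ k).symm.trans hk)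
    have h2 : σ k.1.2 = 1 := by rw [hX, h1, map_one]
    exact Commute.map (Subtype.ext (Prod.ext (mem_center_iff.1 (hσ.2.1 h1) _).symm
      (mem_center_iff.1 (hσ.2.1 h2) _).symm)) _

end Cfsg.Agent.H96.Mu
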