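import Cfsg.Agent.H96.MuD
import Cfsg.Agent.H96.T24

/-! The cocycle of the triple cover of Fi24 satisfies the relators. -/

set_option autoImplicit false
set_option maxRecDepth 100000
set_option exponentiation.threshold 400000
set_option Elab.async false

namespace Cfsg.Agent.H96.Mu

open Cfsg.Agent.H58 Cfsg.Spor

/-- one letter: the pair of masks of `-(c + u)` -/
noncomputable def stp (k : ℕ → ℕ → ℕ) (c1 c2 u1 u2 : ℕ) : ℕ :=
  frcN (fun t => frcN (fun s => frcN (k s) (Nat.xor (Nat.lor u2 c2) t)) (Nat.xor (Nat.lor u1 c1) t))
    (Nat.xor (Nat.lor u1 c2) (Nat.lor u2 c1))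

/-- the cocycle of a word is `r` -/
noncomputable def go (nets : List Net) (r : ℕ) (w : List ℕ) : ℕ → ℕ → ℕ :=
  List.rec (motive := fun _ => ℕ → ℕ → ℕ) (fun a1 a2 => Nat.add (Nat.xor a1 r) a2)
    (fun y _ ih a1 a2 => frcN (fun u1 => frcN (stp ih (cA.getD y 0) (cB.getD y 0) u1)
      (appW nets [y] a2)) (appW nets [y] a1)) w

/-- the Coxeter relators with a given first letter -/
noncomputable def row (x : Fi24.Gen) : Bool := Fi24P.allG.all fun y => Nat.beq (go F24M.nets 0
  (List.replicate (coxLabel Fi24.edges x y) [Fi24P.code x, Fi24P.code y]).flatten 0 0) 0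

theorem dj : (List.range 13).all (fun y => Nat.beq (Nat.land (cA.getD y 0) (cB.getD y 0)) 0) = true := by
  decide +kernel
theorem ra : row .a = true := by decide +kernel
theorem rb : row .b = true := by decide +kernel
theorem rc : row .c = true := by decide +kernel
theorem rd : row .d = true := by decide +kernel
theorem re : row .e = true := by decide +kernel
theorem rf : row .f = true := by decide +kernel
theorem rg : row .g = true := by decide +kernel
theorem rh : row .h = true := by decide +kernel
theorem ri : row .i = true := by decide +kernel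
theorem rj : row .j = true := by decide +kernel
theorem rk : row .k = true := by decide +kernel
theorem rl : row .l = true := by decide +kernel
theorem x1 : Nat.beq (go F24M.nets 0 ((List.replicate 9 [1, 2, 3, 4, 5, 6, 8]).flatten ++ [12]) 0 0) 0 = true := by
  decide +kernel
theorem x2 : Nat.beq (go F24M.nets K24.full
    (List.replicate 17 [4, 3, 2, 1, 11, 12, 4, 5, 6, 7, 10, 4, 8, 9]).flatten 0 0) 0 = true := by
  decide +kernel

end Cfsg.Agent.H96.Mu
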