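import Cfsg.Agent.H96.Facts24
import Cfsg.Agent.H95.Pack3

/-! The Fischer spaces of Fi22, Fi23 and Fi24 are of the types M(22), M(23), M(24). -/

set_option autoImplicit false
set_option maxRecDepth 100000

namespace Cfsg.Agent.H96

open Cfsg Subgroup Module Cfsg.Agent.H95 Cfsg.Agent.H29

section
variable {G G' : Type*} [Group G] [Group G'] [Finite G] {S : Set G}

omit [Finite G] in
theorem irr_of_set (h : CSp S) {b : G} (hb : b ∈ S) {L : Set G} (hL : L ⊆ Dd S b) (hne : L.Nonempty)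
    (hx : ∀ x ∈ S, (∀ p ∈ L, Commute p x) → x = b) : Irr S := by
  have key : ∀ y ∈ S, ∀ x ∈ S, (∀ e ∈ Dd S y, Commute x e) → y = x := fun y hy x hxS h1 => by
    obtain ⟨g, hg, rfl⟩ := h.conj hb hy
    have h2 := hx _ (h.cjm (inv_mem hg) hxS) fun p hp => by
      have h3 := h1 (cj g p) ⟨h.cjm hg (hL hp).1, (cj_injective g).ne (hL hp).2.1,
        (commute_cj g).2 (hL hp).2.2⟩
      rw [← cj_cj_inv g x, commute_cj] at h3
      exact h3.symm
    rw [← h2, cj_cj_inv]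
  obtain ⟨p, hp⟩ := hne
  exact ⟨h, ⟨p, (hL hp).1, b, hb, (hL hp).2.1⟩,
    fun y hy x hxS h1 => key y hy x hxS fun e he => (h1 e he.1).1 he.2.2,
    fun y hy x hxS h1 => key y hy x hxS fun e he => ((h1 e he.1).1 he.2).2⟩

theorem all_Dd (hI : Irr S) {P : Set G → Prop} (hP : ∀ {β : G → G} {A B}, Iso β A B → P B → P A)
    {d : G} (hd : d ∈ S) (h : P (Dd S d)) : ∀ e ∈ S, P (Dd S e) := fun e he => by
  obtain ⟨g, h1⟩ := hI.iso_Dd hd he
  exact hP h1 h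

theorem f22_of (hI : Irr S) (hc : CC S) {d : G} (hd : d ∈ S) (h : Irr (Dd S d)) (h1 : Pol (Dd S d))
    (hQ : ¬ Q2 (Dd S d)) (hn : S.ncard ≠ 126) : F22 S := by
  have hH := all_Dd hI Iso.irr hd h
  have hcc := fun e he => hI.cc_Dd hc he (hH e he)
  have hP : ∀ e ∈ S, Pol (Dd S e) := fun e he => by
    obtain ⟨g, h2⟩ := hI.iso_Dd he hd
    exact h2.pol' h1
  have hQ' : ∀ e ∈ S, ¬ Q2 (Dd S e) := fun e he h2 => hQ (all_Dd hI Iso.q2 he h2 d hd)
  have P : PL S := ⟨hI, hc, hH, hP⟩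
  obtain ⟨n, f, v, E, hf⟩ := h.exists_unitary (hcc d hd) h1 hQ
  have h4 := E.four_le h rfl
  have hF := all_Dd hI (fun h => h.fullT) hd (fullT_of E hf)
  generalize finrank F4 (F4 × (Fin n → F4) × F4) = m at h4 hF
  have h6 := P.le_six hQ' hF
  have h5 : m ≠ 5 := fun h5 => P.not_five hQ' hd (h5 ▸ hF d hd)
  obtain rfl | rfl : m = 4 ∨ m = 6 := by omega
  · exact (hn ((P.on_six hQ' hF).ncard6 hI)).elim
  refine ⟨hI, hc, fun e he => ⟨hH e he, hF e he⟩, fun d hd c hc' hdc => ?_⟩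
  obtain ⟨k1, k2, k3⟩ := hI.mu hc (P := FullT F4 4) (fun e he d hd c hc hdc => by
    obtain ⟨f, v, E, hf⟩ := hF e he
    exact E.perp_two_type hf (hH e he) hd hc hdc (by simp)) hd hc' hdc
  have k4 := fun a ha => PL.on_six ⟨(k3 a ha).1, (k3 a ha).2.1, fun e he => ((k3 a ha).2.2 e he).1,
    fun e he => (((k3 a ha).2.2 e he).2.pol4 ((k3 a ha).2.2 e he).1).1⟩
    (fun e he => (((k3 a ha).2.2 e he).2.pol4 ((k3 a ha).2.2 e he).1).2)
    fun e he => ((k3 a ha).2.2 e he).2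
  obtain ⟨a, ha, -⟩ := k1.two
  exact ⟨k1, Comp_eq_of_cc ha (k1.cc_of_ncard k2 fun a ha => by
    rw [(k4 a ha).ncard6 (k3 a ha).1]; decide) ▸ k4 a ha⟩

theorem f23_of (hI : Irr S) (hc : CC S) (h2 : ∀ e ∈ S, F22 (Dd S e)) : F23 S := by
  refine ⟨hI, hc, h2, fun d hd c hc' hdc => ?_⟩
  obtain ⟨k1, k2, k3⟩ := hI.mu hc (P := ON 6) (fun e he => (h2 e he).mu) hd hc' hdc
  have k4 := fun a ha => on_step (k3 a ha).1 (k3 a ha).2.1 (k3 a ha).2.2 le_rfl
  obtain ⟨a, ha, -⟩ := k1.two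
  exact ⟨k1, Comp_eq_of_cc ha (k1.cc_of_ncard k2 fun a ha => by
    rw [(k4 a ha).ncard7 (k3 a ha).1]; decide) ▸ k4 a ha⟩

theorem f24_of (hI : Irr S) (hc : CC S) (h2 : ∀ e ∈ S, F23 (Dd S e)) : F24 S := by
  refine ⟨hI, hc, h2, fun d hd c hc' hdc => ?_⟩
  obtain ⟨k1, k2, k3⟩ := hI.mu hc (P := ON 7) (fun e he => (h2 e he).mu) hd hc' hdc
  have k4 := fun a ha => on_step (k3 a ha).1 (k3 a ha).2.1 (k3 a ha).2.2 (by decide)
  refine ⟨k1, fun k5 => ?_, k2, k4⟩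
  obtain ⟨a, ha, -⟩ := k1.two
  have k6 := ON.ncard8 (Comp_eq_of_cc ha k5 ▸ k4 a ha) k1
  obtain ⟨l, k7, k8⟩ := count3 hd (fun e he => (h2 e he).ncard)
    (fun e he => ((h2 d hd).loc e he).ncard) (mu := 1080) fun c' hc'' hdc' => by
      obtain ⟨g, hg, e1, e2⟩ := hI.conj2' hc hd hc'' hdc' hd hc' hdc
      rw [((hI.iso_self hg).dd2 hd hc'').ncard, e1, e2, k6]
  have k9 := hI.ncard_mod_three hd hc' hdc
  rw [k6, k7, Nat.ModEq] at k9
  omega

omit [Finite G] in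
theorem IsChart.iso {S' : Set G'} {f : G → G'} (h : IsChart S S' f) (h1 : Sp S) (h2 : Sp S') :
    Iso f S S' :=
  ⟨h1, h2, h.bij, fun _ ha _ hb => h.map_cj h1.tt h2.tt ha hb⟩

end

namespace Ty22
def L : List Pt := [([], 3), ([9, 8], 4), ([5, 4, 8, 9, 2, 3, 4, 8, 6, 5, 4, 3, 2], 1),
  ([5, 4, 8, 9, 6, 5, 4, 8, 7, 6, 5, 4], 3)]
def z1 : Pt := ([4, 8, 7, 6, 5, 4], 3)
def z2 : Pt := ([9, 8, 5, 6, 4, 5, 3, 4, 8, 9, 4, 5, 6, 3, 4, 5, 2, 3, 4, 8, 7, 6, 5, 4, 3, 2], 1)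
theorem c1 : K22.allIn L (Nat.land (K22.perp ([], 1)) (K22.perp ([], 8))) = true := by decide +kernel
theorem c2 : Nat.beq (dif (K22.cperps (K22.perp ([], 1)) L) (K22.sing ([], 8))) 0 = true := by
  decide +kernel
theorem c3 : K22.allIn [([], 8), ([], 6), z1, z2] (K22.perp ([], 1)) = true := by decide +kernel
theorem c4 : K22.allIn [([], 6), z1, z2] (K22.perp ([], 8)) = true := by decide +kernel
theorem c5 : K22.allIn [z1, z2] (K22.perp ([], 6)) = true := by decide +kernel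
theorem c6 : K22.allIn [z2] (K22.perp z1) = true := by decide +kernel
theorem c7 : Nat.beq (dif (K22.cperps (K22.perp ([], 1)) [([], 8), ([], 6)])
    (K22.cperps (K22.perp ([], 1)) [z1, z2])) 0 = true := by decide +kernel
end Ty22

theorem irr22 : Irr D22 :=
  irr_of_class class22 ⟨_, a22_mem, _, b22_mem, fun h => not_commute_ab22 (h ▸ Commute.refl _)⟩
    irred22.1

theorem irr23 : Irr D23 :=
  irr_of_class class23 ⟨_, t23_mem, _, j23_mem, fun h => not_commute_tj23 (h ▸ Commute.refl _)⟩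
    irred23.1

theorem irr24 : Irr D24 :=
  irr_of_class class24 ⟨_, l24_mem, _, k24_mem, fun h => not_commute_lk24 (h ▸ Commute.refl _)⟩
    irred24.1

open Ty22 in
theorem f22 : F22 D22 := by
  have := H58.Fi22P.finite
  have ea : T22.st (T22.dat.perp ([], 1)) = Dd D22 a22 := by
    rw [T22.st_perp (by decide), T22_val_a]; rfl
  have o : ∀ p ∈ [([], 8), ([], 6), z1, z2], T22.dat.okP p = true := by decide
  have h3 := fun p hp => ea ▸ (T22.allIn_sound c3 p hp).2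
  have h4 := fun p hp => T22.st_perp (o ([], 8) (by simp)) ▸ (T22.allIn_sound c4 p hp).2
  have h5 := fun p hp => T22.st_perp (o ([], 6) (by simp)) ▸ (T22.allIn_sound c5 p hp).2
  have h6 := fun p hp => T22.st_perp (o z1 (by simp)) ▸ (T22.allIn_sound c6 p hp).2
  have h7 : ∀ z ∈ [z1, z2], T22.val z ∈ LL (Dd D22 a22) (T22.val ([], 8)) (T22.val ([], 6)) :=
    fun z hz => ⟨h3 z (List.mem_cons_of_mem _ (List.mem_cons_of_mem _ hz)), fun e he e1 e2 =>
      ((T22.mem_cperps_iff (by decide)).1 (T22.subset_of_dif c7 ((T22.mem_cperps_iff (by decide)).2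
        ⟨ea ▸ he, by simpa using ⟨e1, e2⟩⟩))).2 z hz⟩
  have h8 : T22.val ([], 6) ∈ Dd (Dd D22 a22) (T22.val ([], 8)) :=
    ⟨h3 _ (by simp), (h4 _ (by simp)).2⟩
  refine f22_of irr22 irred22.2 a22_mem (irr_of_set (irr22.cDd a22_mem) (h3 ([], 8) (by simp))
    (L := {x | ∃ p ∈ L, T22.val p = x}) ?_ ⟨_, _, List.mem_cons_self, rfl⟩ fun x hx h => ?_)
    ⟨_, h3 ([], 8) (by simp), _, h8, _, h7 z1 (by simp), (h4 _ (by simp)).2.1, (h5 _ (by simp)).2.1⟩
    (fun h => (h6 z2 (by simp)).2.1 (h _ (h3 ([], 8) (by simp)) _ h8 _ (h7 z2 (by simp)) _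
      (h7 z1 (by simp)) (h4 _ (by simp)).2.1 (h5 _ (by simp)).2.1 (h4 _ (by simp)).2.1
      (h5 _ (by simp)).2.1)) (by rw [ncard22]; decide)
  · rintro _ ⟨p, hp, rfl⟩
    have h1 := (T22.allIn_sound c1 p hp).2
    rw [T22.st_land, ← T22_dat, ea, T22.st_perp (by decide)] at h1
    exact ⟨h1.1, h1.2.2⟩
  · have h1 := T22.subset_of_dif c2 ((T22.mem_cperps_iff (by decide)).2
      ⟨ea ▸ hx, fun p hp => h _ ⟨p, hp, rfl⟩⟩)
    rwa [← T22_dat, T22.st_sing (by decide)] at h1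

theorem f23 : F23 D23 :=
  have := H58.Fi23P.finite
  f23_of irr23 irred23.2 fun e he => by
    obtain ⟨k, hk⟩ := chart_nb23 he
    exact (hk.iso (irr23.sDd e) irr22.toSp).f22 f22

theorem f24 : F24 D24 :=
  have := H58.Fi24P.finite
  f24_of irr24 irred24.2 fun e he => by
    obtain ⟨k, hk⟩ := chart_nb24 he
    exact (hk.iso (irr24.sDd e) irr23.toSp).f23 f23

theorem type22' : IsOfTypeM22 Spor.Fi22 D22 :=
  have := H58.Fi22P.finite
  f22.type center22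

theorem type23' : IsOfTypeM23 Spor.Fi23 D23 :=
  have := H58.Fi23P.finite
  f23.type center23

theorem type24' : IsOfTypeM24 Spor.Fi24 D24 :=
  have := H58.Fi24P.finite
  f24.type center24

end Cfsg.Agent.H96
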